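import Cfsg.Agent.H86.Alt.TwoD

set_option autoImplicit false

namespace Cfsg.Agent.H86.Alt2

open Equiv

theorem ns {G : Type*} [Group G] (x y : G) (hx : x ^ 2 = 1) (hy : y ^ 3 = 1) (n : ℕ) (hn : (x * y) ^ n = 1)
    (hc : Nat.Coprime n 6) (hne : x ≠ 1) : ¬ Group.IsSolvable (Subgroup.closure ({x, y} : Set G)) := by
  intro hs
  set H := Subgroup.closure ({x, y} : Set G) with hH
  have hxH : x ∈ H := Subgroup.subset_closure (by simp)
  have hyH : y ∈ H := Subgroup.subset_closure (by simp)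
  let φ : H →* Abelianization H := Abelianization.of
  have h1 : φ ⟨x, hxH⟩ ^ 2 = 1 := by
    rw [← map_pow]
    have : (⟨x, hxH⟩ : H) ^ 2 = 1 := Subtype.ext hx
    rw [this, map_one]
  have h2 : φ ⟨y, hyH⟩ ^ 3 = 1 := by
    rw [← map_pow]
    have : (⟨y, hyH⟩ : H) ^ 3 = 1 := Subtype.ext hy
    rw [this, map_one]
  have h3 : (φ ⟨x, hxH⟩ * φ ⟨y, hyH⟩) ^ n = 1 := by
    rw [← map_mul, ← map_pow]
    have : ((⟨x, hxH⟩ : H) * ⟨y, hyH⟩) ^ n = 1 := Subtype.ext hn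
    rw [this, map_one]
  have h4 : (φ ⟨x, hxH⟩ * φ ⟨y, hyH⟩) ^ 6 = 1 := by
    rw [mul_pow]
    have a : φ ⟨x, hxH⟩ ^ 6 = 1 := by
      rw [show (6 : ℕ) = 2 * 3 from rfl, pow_mul, h1, one_pow]
    have b : φ ⟨y, hyH⟩ ^ 6 = 1 := by
      rw [show (6 : ℕ) = 3 * 2 from rfl, pow_mul, h2, one_pow]
    rw [a, b, one_mul]
  have h5 : φ ⟨x, hxH⟩ * φ ⟨y, hyH⟩ = 1 := by
    have := pow_gcd_eq_one.mpr ⟨h3, h4⟩
    rwa [hc.gcd_eq_one, pow_one] at this
  have h6 : φ ⟨x, hxH⟩ = (φ ⟨y, hyH⟩)⁻¹ := mul_eq_one_iff_eq_inv.mp h5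
  have h7 : φ ⟨x, hxH⟩ = 1 := by
    have a : φ ⟨x, hxH⟩ ^ 3 = 1 := by rw [h6, inv_pow, h2, inv_one]
    have := pow_gcd_eq_one.mpr ⟨h1, a⟩
    simpa using this
  have h8 : φ ⟨y, hyH⟩ = 1 := by
    rw [h7, one_mul] at h5; exact h5
  have h9 : ∀ h : H, φ h = 1 := by
    rintro ⟨h, hh⟩
    induction hh using Subgroup.closure_induction with
    | mem z hz =>
      rcases hz with rfl | rfl
      · exact h7
      · exact h8
    | one => exact map_one φ
    | mul a b ha hb iha ihb =>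
      have : (⟨a * b, H.mul_mem ha hb⟩ : H) = ⟨a, ha⟩ * ⟨b, hb⟩ := rfl
      rw [this, map_mul, iha, ihb, one_mul]
    | inv a ha iha =>
      have : (⟨a⁻¹, H.inv_mem ha⟩ : H) = (⟨a, ha⟩ : H)⁻¹ := rfl
      rw [this, map_inv, iha, inv_one]
  have h10 : commutator H = ⊤ := by
    rw [eq_top_iff]
    intro h _
    have : h ∈ (Abelianization.of : H →* Abelianization H).ker := h9 h
    rwa [Abelianization.ker_of] at this
  have : Nontrivial H := ⟨⟨⟨x, hxH⟩, 1, fun e => hne (congrArg Subtype.val e)⟩⟩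
  exact absurd h10 (Group.IsSolvable.commutator_lt_top_of_nontrivial H).ne

lemma iter_real (f : ℕ → ℕ) (Z : Perm (Fin 9)) (h : ∀ i : Fin 9, f (i : ℕ) = (Z i : ℕ)) (n : ℕ) (i : Fin 9) :
    f^[n] (i : ℕ) = ((Z ^ n) i : ℕ) := by
  induction n generalizing i with
  | zero => rfl
  | succ n ih =>
    rw [Function.iterate_succ_apply, h, ih, pow_succ]; rfl

def nn : ℕ → ℕ
  | 0 => 5
  | 1 => 5
  | _ => 7

def wf (t : ℕ) : Bool :=
  (List.range 9).all (fun i => Nat.beq ((Yw (gx t))^[2] i) i) &&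
  (List.range 9).all (fun i => Nat.beq ((Yw (gy t))^[3] i) i) &&
  (List.range 9).all (fun i => Nat.beq ((fun z => Yw (gx t) (Yw (gy t) z))^[nn t] i) i) &&
  (List.range 9).any (fun i => !(Nat.beq (Yw (gx t) i) i)) &&
  (gx t).all goodT && (gy t).all goodT

theorem wf_all : ∀ t < 5, wf t = true := by decide +kernel

lemma wf_use (t : ℕ) (h : wf t = true) (X Y : A9) (hX : ∀ i : Fin 9, Yw (gx t) (i : ℕ) = ((X : Perm (Fin 9)) i : ℕ))
    (hY : ∀ i : Fin 9, Yw (gy t) (i : ℕ) = ((Y : Perm (Fin 9)) i : ℕ)) :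
    X ^ 2 = 1 ∧ Y ^ 3 = 1 ∧ (X * Y) ^ (nn t) = 1 ∧ X ≠ 1 := by
  unfold wf at h
  simp only [Bool.and_eq_true, List.all_eq_true, List.mem_range, Nat.beq_eq, List.any_eq_true,
    Bool.not_eq_true'] at h
  obtain ⟨⟨⟨⟨⟨h1, h2⟩, h3⟩, h4⟩, _⟩, _⟩ := h
  refine ⟨?_, ?_, ?_, ?_⟩
  · apply Subtype.ext
    apply Perm.ext
    intro i
    apply Fin.ext
    have := h1 i i.2
    rw [iter_real _ _ hX] at this
    exact this
  · apply Subtype.ext
    apply Perm.ext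
    intro i
    apply Fin.ext
    have := h2 i i.2
    rw [iter_real _ _ hY] at this
    exact this
  · apply Subtype.ext
    apply Perm.ext
    intro i
    apply Fin.ext
    have := h3 i i.2
    have hXY : ∀ i : Fin 9, (fun z => Yw (gx t) (Yw (gy t) z)) (i : ℕ) = (((X : Perm (Fin 9)) * Y) i : ℕ) := by
      intro i
      show Yw (gx t) (Yw (gy t) i) = _
      rw [hY, hX]; rfl
    rw [iter_real _ _ hXY] at this
    exact this
  · intro e
    obtain ⟨i, hi, h5⟩ := h4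
    have := hX ⟨i, hi⟩
    rw [e] at this
    have h6 : Yw (gx t) i = i := this
    rw [h6] at h5
    simp at h5

lemma nn_cop : ∀ t, Nat.Coprime (nn t) 6 := by
  intro t
  match t with
  | 0 => decide
  | 1 => decide
  | (n + 2) =>
    have : nn (n + 2) = 7 := rfl
    rw [this]
    decide

section
variable {V : Type*} [AddCommGroup V] (ρ : A9 →* AddMonoid.End V)

lemma rho_mul (a b : A9) (z : V) : ρ (a * b) z = ρ a (ρ b z) := by rw [map_mul]; rfl

lemma rho_one (z : V) : ρ 1 z = z := by rw [map_one]; rfl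

lemma fixstep (h2 : ∀ v : V, v + v = 0) (N : V → Prop) (n : V) (hn : N n) (hn0 : n ≠ 0) (s : A9) (hs : s * s = 1)
    (hN : ∀ z, N z → N (z + ρ s z)) : ∃ z, N z ∧ z ≠ 0 ∧ ρ s z = z := by
  by_cases h : n + ρ s n = 0
  · refine ⟨n, hn, hn0, ?_⟩
    have h3 : ρ s n = - n := (neg_eq_of_add_eq_zero_right h).symm
    have h4 : - n = n := neg_eq_of_add_eq_zero_right (h2 n)
    rw [h3, h4]
  · refine ⟨n + ρ s n, hN n hn, h, ?_⟩
    rw [map_add, ← rho_mul, hs, rho_one, add_comm]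

lemma fix_add {s t t' : A9} (h : t * s = s * t') {z : V} (hz : ρ t z = z) (hz' : ρ t' z = z) :
    ρ t (z + ρ s z) = z + ρ s z := by
  rw [map_add, hz, ← rho_mul, h, rho_mul, hz']

def e12 : A9 := ⟨s1 * s2, Perm.mem_alternatingGroup.mpr (by decide)⟩
def e13 : A9 := ⟨s1 * s3, Perm.mem_alternatingGroup.mpr (by decide)⟩
def e14 : A9 := ⟨s1 * s4, Perm.mem_alternatingGroup.mpr (by decide)⟩
def e5 : A9 := ⟨s5, Perm.mem_alternatingGroup.mpr (by decide)⟩
def e6 : A9 := ⟨s6, Perm.mem_alternatingGroup.mpr (by decide)⟩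
def e7 : A9 := ⟨s7, Perm.mem_alternatingGroup.mpr (by decide)⟩

lemma exists_good (h2 : ∀ v : V, v + v = 0) (hne : ∃ v : V, v ≠ 0) : ∃ v : V, v ≠ 0 ∧ Good (Kst ρ v) := by
  obtain ⟨v0, hv0⟩ := hne
  obtain ⟨v1, -, hv1, a1⟩ := fixstep ρ h2 (fun _ => True) v0 trivial hv0 e12 (by decide) (fun _ _ => trivial)
  obtain ⟨v2, a2, hv2, b2⟩ := fixstep ρ h2 (fun z => ρ e12 z = z) v1 a1 hv1 e13 (by decide)
    (fun z hz => fix_add ρ (by decide : e12 * e13 = e13 * e12) hz hz)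
  obtain ⟨v3, ⟨a3, b3⟩, hv3, c3⟩ := fixstep ρ h2 (fun z => ρ e12 z = z ∧ ρ e13 z = z) v2 ⟨a2, b2⟩ hv2 e14 (by decide)
    (fun z hz => ⟨fix_add ρ (by decide : e12 * e14 = e14 * e12) hz.1 hz.1,
      fix_add ρ (by decide : e13 * e14 = e14 * e13) hz.2 hz.2⟩)
  obtain ⟨v4, ⟨a4, b4, c4⟩, hv4, d4⟩ := fixstep ρ h2 (fun z => ρ e12 z = z ∧ ρ e13 z = z ∧ ρ e14 z = z) v3
    ⟨a3, b3, c3⟩ hv3 e5 (by decide)
    (fun z hz => ⟨fix_add ρ (by decide : e12 * e5 = e5 * e12) hz.1 hz.1,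
      fix_add ρ (by decide : e13 * e5 = e5 * (e12 * e13)) hz.2.1 (by rw [rho_mul, hz.2.1, hz.1]),
      fix_add ρ (by decide : e14 * e5 = e5 * (e12 * e14)) hz.2.2 (by rw [rho_mul, hz.2.2, hz.1])⟩)
  obtain ⟨v5, ⟨a5, b5, c5, d5⟩, hv5, e5'⟩ := fixstep ρ h2
    (fun z => ρ e12 z = z ∧ ρ e13 z = z ∧ ρ e14 z = z ∧ ρ e5 z = z) v4
    ⟨a4, b4, c4, d4⟩ hv4 e6 (by decide)
    (fun z hz => ⟨fix_add ρ (by decide : e12 * e6 = e6 * e12) hz.1 hz.1,
      fix_add ρ (by decide : e13 * e6 = e6 * e14) hz.2.1 hz.2.2.1,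
      fix_add ρ (by decide : e14 * e6 = e6 * e13) hz.2.2.1 hz.2.1,
      fix_add ρ (by decide : e5 * e6 = e6 * e5) hz.2.2.2 hz.2.2.2⟩)
  obtain ⟨v6, ⟨a6, b6, c6, d6, e6'⟩, hv6, f6⟩ := fixstep ρ h2
    (fun z => ρ e12 z = z ∧ ρ e13 z = z ∧ ρ e14 z = z ∧ ρ e5 z = z ∧ ρ e6 z = z) v5
    ⟨a5, b5, c5, d5, e5'⟩ hv5 e7 (by decide)
    (fun z hz => ⟨fix_add ρ (by decide : e12 * e7 = e7 * (e13 * e14)) hz.1 (by rw [rho_mul, hz.2.2.1, hz.2.1]),
      fix_add ρ (by decide : e13 * e7 = e7 * e13) hz.2.1 hz.2.1,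
      fix_add ρ (by decide : e14 * e7 = e7 * (e12 * e13)) hz.2.2.1 (by rw [rho_mul, hz.2.1, hz.1]),
      fix_add ρ (by decide : e5 * e7 = e7 * e6) hz.2.2.2.1 hz.2.2.2.2,
      fix_add ρ (by decide : e6 * e7 = e7 * e5) hz.2.2.2.2 hz.2.2.2.1⟩)
  exact ⟨v6, hv6, ⟨⟨_, d6⟩, ⟨_, e6'⟩, ⟨_, f6⟩, ⟨_, a6⟩, ⟨_, b6⟩, ⟨_, c6⟩⟩⟩

variable (v : V) (hK : Good (Kst ρ v)) (hno : ∀ x y : A9, x ^ 2 = 1 → y ^ 3 = 1 → ∀ n, Nat.Coprime n 6 →
  (x * y) ^ n = 1 → x ≠ 1 → ∀ z : V, ρ x z = z → ρ y z = z → z = 0)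
include hK hno

lemma entry_zero (e : ℕ × List ℕ × List (List ℕ × ℕ)) (he : chk1 e = true) (p : List ℕ × ℕ) (hp : p ∈ e.2.2) :
    ((unp e.2.1.length p.2).map (fun i => F ρ v (getc i))).sum = 0 := by
  unfold chk1 at he
  simp only [Bool.and_eq_true] at he
  obtain ⟨⟨⟨⟨hval, hpx⟩, hpy⟩, ht⟩, hall⟩ := he
  rw [List.all_eq_true] at hval
  have ht5 : e.1 < 5 := by simpa using ht
  have hwf := wf_all e.1 ht5
  have hgx : (gx e.1).all goodT = true := by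
    unfold wf at hwf
    simp only [Bool.and_eq_true] at hwf
    exact hwf.1.2
  have hgy : (gy e.1).all goodT = true := by
    unfold wf at hwf
    simp only [Bool.and_eq_true] at hwf
    exact hwf.2
  obtain ⟨X, hX⟩ := Yw_real _ hgx
  obtain ⟨Y, hY⟩ := Yw_real _ hgy
  obtain ⟨w1, w2, w3, w4⟩ := wf_use e.1 hwf X Y hX hY
  have hsum : ∀ (w : List ℕ) (y : A9), (∀ i : Fin 9, Yw w (i : ℕ) = ((y : Perm (Fin 9)) i : ℕ)) →
      ∀ l : List ℕ, (∀ c ∈ l, valid c = true) →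
      ((l.map (actC (Yw w))).map (F ρ v)).sum = ρ y ((l.map (F ρ v)).sum) := by
    intro w y hy l hl
    induction l with
    | nil => simp
    | cons c l ih =>
      simp only [List.map_cons, List.sum_cons, map_add]
      rw [ih (fun c hc => hl c (by simp [hc])), F_act ρ v hK y _ hy c (valid_sound c (hl c (by simp)))]
  have hz : (e.2.1.map (F ρ v)).sum = 0 := by
    refine hno X Y w1 w2 _ (nn_cop e.1) w3 w4 _ ?_ ?_
    · rw [← hsum _ X hX _ hval]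
      exact ((permB_sound _ _ hpx).map (F ρ v)).sum_eq
    · rw [← hsum _ Y hY _ hval]
      exact ((permB_sound _ _ hpy).map (F ρ v)).sum_eq
  rw [List.all_eq_true] at hall
  have h1 := hall p hp
  simp only [Bool.and_eq_true] at h1
  obtain ⟨y, hy⟩ := Yw_real _ h1.1
  have h3 := listEq_sound _ _ h1.2
  have h4 := hsum _ y hy _ hval
  rw [hz, map_zero, h3, List.map_map] at h4
  exact h4

lemma ev_entry (h2 : ∀ v : V, v + v = 0) (e : ℕ × List ℕ × List (List ℕ × ℕ)) (he : chk1 e = true) (a : ℕ) :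
    ev (fun i => F ρ v (getc i)) (xorE e a) = ev (fun i => F ρ v (getc i)) a := by
  unfold xorE
  have key := entry_zero ρ v hK hno e he
  generalize e.2.2 = l at key
  generalize e.2.1.length = n at key
  induction l with
  | nil => rfl
  | cons p l ih =>
    rw [List.foldr_cons, ev_xorL h2 _ _ (unp_lt _ _), key p (by simp), zero_add,
      ih (fun q hq => key q (by simp [hq]))]

end

theorem star2 {V : Type*} [AddCommGroup V] (h2 : ∀ v : V, 2 • v = 0) (hne : ∃ v : V, v ≠ 0)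
    (ρ : A9 →* AddMonoid.End V) :
    ∃ Y : Subgroup A9, ¬ Group.IsSolvable Y ∧ ∃ v : V, v ≠ 0 ∧ ∀ y ∈ Y, ρ y v = v := by
  by_contra hcon
  have h2' : ∀ v : V, v + v = 0 := fun v => by rw [← two_nsmul]; exact h2 v
  have hno : ∀ x y : A9, x ^ 2 = 1 → y ^ 3 = 1 → ∀ n, Nat.Coprime n 6 →
      (x * y) ^ n = 1 → x ≠ 1 → ∀ z : V, ρ x z = z → ρ y z = z → z = 0 := by
    intro x y hx hy n hn hxy hx1 z hz1 hz2
    by_contra hz
    apply hcon
    refine ⟨Subgroup.closure {x, y}, ns x y hx hy n hxy hn hx1, z, hz, ?_⟩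
    intro u hu
    induction hu using Subgroup.closure_induction with
    | mem w hw =>
      rcases hw with rfl | rfl
      · exact hz1
      · exact hz2
    | one => exact rho_one ρ z
    | mul a b _ _ iha ihb => rw [rho_mul, ihb, iha]
    | inv a _ iha =>
      conv_lhs => rw [← iha]
      rw [← rho_mul, inv_mul_cancel, rho_one]
  obtain ⟨v, hv, hK⟩ := exists_good ρ h2' hne
  apply hv
  have h3 : ∀ l : List (ℕ × List ℕ × List (List ℕ × ℕ)), l.all chk1 = true →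
      ev (fun i => F ρ v (getc i)) (l.foldr xorE 0) = 0 := by
    intro l hl
    induction l with
    | nil =>
      show ev _ 0 = 0
      unfold ev
      simp
    | cons e l ih =>
      simp only [List.all_cons, Bool.and_eq_true] at hl
      rw [List.foldr_cons, ev_entry ρ v hK hno h2' e hl.1]
      exact ih hl.2
  have h4 := h3 dat chk_all
  rw [xor_all] at h4
  have h5 := ev_two_pow (fun i => F ρ v (getc i)) (i := 0) (by norm_num)
  rw [pow_zero] at h5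
  rw [h4] at h5
  have h6 : F ρ v (getc 0) = v := by
    rw [getc_zero]
    have : kap ((1 : A9) : Perm (Fin 9)) = 34378827111 := by decide
    rw [← this, F_kap ρ v hK, rho_one]
  rw [h6] at h5
  exact h5.symm

end Cfsg.Agent.H86.Alt2
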