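import Mathlib

set_option autoImplicit false

namespace Cfsg.Agent.H86.Alt2

open Equiv

abbrev A9 := alternatingGroup (Fin 9)

def pr (x y : ℕ) : ℕ := if x ≤ y then 16 * x + y else 16 * y + x
def bl (P Q : ℕ) : ℕ := if P ≤ Q then 256 * P + Q else 256 * Q + P
def tr (B C : ℕ) : ℕ := if B ≤ C then 65536 * B + C else 65536 * C + B
def tc (j T : ℕ) : ℕ := 4294967296 * j + T

def actP (Y : ℕ → ℕ) (P : ℕ) : ℕ := pr (Y (P / 16)) (Y (P % 16))
def actB (Y : ℕ → ℕ) (B : ℕ) : ℕ := bl (actP Y (B / 256)) (actP Y (B % 256))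
def actT (Y : ℕ → ℕ) (T : ℕ) : ℕ := tr (actB Y (T / 65536)) (actB Y (T % 65536))
def actC (Y : ℕ → ℕ) (c : ℕ) : ℕ := tc (Y (c / 4294967296)) (actT Y (c % 4294967296))

lemma pr_comm (x y : ℕ) : pr x y = pr y x := by
  unfold pr; split_ifs <;> omega

lemma bl_comm (x y : ℕ) : bl x y = bl y x := by
  unfold bl; split_ifs <;> omega

lemma tr_comm (x y : ℕ) : tr x y = tr y x := by
  unfold tr; split_ifs <;> omega

lemma pr_lt {x y : ℕ} (hx : x < 16) (hy : y < 16) : pr x y < 256 := by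
  unfold pr; split_ifs <;> omega

lemma bl_lt {x y : ℕ} (hx : x < 256) (hy : y < 256) : bl x y < 65536 := by
  unfold bl; split_ifs <;> omega

lemma tr_lt {x y : ℕ} (hx : x < 65536) (hy : y < 65536) : tr x y < 4294967296 := by
  unfold tr; split_ifs <;> omega

lemma pr_inj {x y x' y' : ℕ} (hx : x < 16) (hy : y < 16) (hx' : x' < 16) (hy' : y' < 16)
    (h : pr x y = pr x' y') : (x = x' ∧ y = y') ∨ (x = y' ∧ y = x') := by
  unfold pr at h; split_ifs at h <;> omega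

lemma bl_inj {x y x' y' : ℕ} (hx : x < 256) (hy : y < 256) (hx' : x' < 256) (hy' : y' < 256)
    (h : bl x y = bl x' y') : (x = x' ∧ y = y') ∨ (x = y' ∧ y = x') := by
  unfold bl at h; split_ifs at h <;> omega

lemma tr_inj {x y x' y' : ℕ} (hx : x < 65536) (hy : y < 65536) (hx' : x' < 65536) (hy' : y' < 65536)
    (h : tr x y = tr x' y') : (x = x' ∧ y = y') ∨ (x = y' ∧ y = x') := by
  unfold tr at h; split_ifs at h <;> omega

lemma actP_pr (Y : ℕ → ℕ) {x y : ℕ} (hx : x < 16) (hy : y < 16) : actP Y (pr x y) = pr (Y x) (Y y) := by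
  unfold actP
  by_cases h : x ≤ y
  · have e : pr x y = 16 * x + y := by unfold pr; rw [if_pos h]
    rw [e]
    have e1 : (16 * x + y) / 16 = x := by omega
    have e2 : (16 * x + y) % 16 = y := by omega
    rw [e1, e2]
  · have e : pr x y = 16 * y + x := by unfold pr; rw [if_neg h]
    rw [e]
    have e1 : (16 * y + x) / 16 = y := by omega
    have e2 : (16 * y + x) % 16 = x := by omega
    rw [e1, e2, pr_comm]

lemma actB_bl (Y : ℕ → ℕ) {x y : ℕ} (hx : x < 256) (hy : y < 256) :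
    actB Y (bl x y) = bl (actP Y x) (actP Y y) := by
  unfold actB
  by_cases h : x ≤ y
  · have e : bl x y = 256 * x + y := by unfold bl; rw [if_pos h]
    rw [e]
    have e1 : (256 * x + y) / 256 = x := by omega
    have e2 : (256 * x + y) % 256 = y := by omega
    rw [e1, e2]
  · have e : bl x y = 256 * y + x := by unfold bl; rw [if_neg h]
    rw [e]
    have e1 : (256 * y + x) / 256 = y := by omega
    have e2 : (256 * y + x) % 256 = x := by omega
    rw [e1, e2, bl_comm]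

lemma actT_tr (Y : ℕ → ℕ) {x y : ℕ} (hx : x < 65536) (hy : y < 65536) :
    actT Y (tr x y) = tr (actB Y x) (actB Y y) := by
  unfold actT
  by_cases h : x ≤ y
  · have e : tr x y = 65536 * x + y := by unfold tr; rw [if_pos h]
    rw [e]
    have e1 : (65536 * x + y) / 65536 = x := by omega
    have e2 : (65536 * x + y) % 65536 = y := by omega
    rw [e1, e2]
  · have e : tr x y = 65536 * y + x := by unfold tr; rw [if_neg h]
    rw [e]
    have e1 : (65536 * y + x) / 65536 = y := by omega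
    have e2 : (65536 * y + x) % 65536 = x := by omega
    rw [e1, e2, tr_comm]

lemma actC_tc (Y : ℕ → ℕ) {j T : ℕ} (hT : T < 4294967296) :
    actC Y (tc j T) = tc (Y j) (actT Y T) := by
  unfold actC
  have e : tc j T = 4294967296 * j + T := rfl
  rw [e]
  have e1 : (4294967296 * j + T) / 4294967296 = j := by omega
  have e2 : (4294967296 * j + T) % 4294967296 = T := by omega
  rw [e1, e2]

/-- the first block, second block and the code of a permutation -/
def kp (a b : Fin 9) : ℕ := pr (a : ℕ) (b : ℕ)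
def kb (a b c d : Fin 9) : ℕ := bl (kp a b) (kp c d)
def kap (g : Perm (Fin 9)) : ℕ :=
  tc (g 8 : ℕ) (tr (kb (g 0) (g 1) (g 2) (g 3)) (kb (g 4) (g 5) (g 6) (g 7)))

lemma f16 (a : Fin 9) : (a : ℕ) < 16 := by omega

lemma kp_lt (a b : Fin 9) : kp a b < 256 := pr_lt (f16 a) (f16 b)
lemma kb_lt (a b c d : Fin 9) : kb a b c d < 65536 := bl_lt (kp_lt _ _) (kp_lt _ _)

lemma actC_kap (Y : ℕ → ℕ) (y g : Perm (Fin 9)) (h : ∀ i : Fin 9, Y (i : ℕ) = (y i : ℕ)) :
    actC Y (kap g) = kap (y * g) := by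
  unfold kap
  rw [actC_tc Y (tr_lt (kb_lt _ _ _ _) (kb_lt _ _ _ _)), actT_tr Y (kb_lt _ _ _ _) (kb_lt _ _ _ _)]
  unfold kb
  rw [actB_bl Y (kp_lt _ _) (kp_lt _ _), actB_bl Y (kp_lt _ _) (kp_lt _ _)]
  unfold kp
  rw [actP_pr Y (f16 _) (f16 _), actP_pr Y (f16 _) (f16 _), actP_pr Y (f16 _) (f16 _),
    actP_pr Y (f16 _) (f16 _)]
  simp only [h, Perm.mul_apply]

def s1 : Perm (Fin 9) := swap 0 1
def s2 : Perm (Fin 9) := swap 2 3
def s3 : Perm (Fin 9) := swap 4 5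
def s4 : Perm (Fin 9) := swap 6 7
def s5 : Perm (Fin 9) := swap 0 2 * swap 1 3
def s6 : Perm (Fin 9) := swap 4 6 * swap 5 7
def s7 : Perm (Fin 9) := swap 0 4 * swap 1 5 * swap 2 6 * swap 3 7

/-- `E K u` : `u` or `u * s1` is in `K` -/
def E (K : Subgroup (Perm (Fin 9))) (u : Perm (Fin 9)) : Prop := u ∈ K ∨ u * s1 ∈ K

structure Good (K : Subgroup (Perm (Fin 9))) : Prop where
  h5 : s5 ∈ K
  h6 : s6 ∈ K
  h7 : s7 ∈ K
  h12 : s1 * s2 ∈ K
  h13 : s1 * s3 ∈ K
  h14 : s1 * s4 ∈ K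

lemma E_odd {K : Subgroup (Perm (Fin 9))} (s : Perm (Fin 9)) (hs : s1 * s ∈ K) (hc : s * s1 = s1 * s)
    {u : Perm (Fin 9)} (hu : E K u) : E K (u * s) := by
  rcases hu with h | h
  · right
    rw [mul_assoc, hc]; exact K.mul_mem h hs
  · left
    have : u * s = (u * s1) * (s1 * s) := by
      have h1 : s1 * s1 = 1 := by decide
      calc u * s = u * 1 * s := by rw [mul_one]
        _ = u * (s1 * s1) * s := by rw [h1]
        _ = _ := by group
    rw [this]; exact K.mul_mem h hs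

lemma E_even {K : Subgroup (Perm (Fin 9))} (s : Perm (Fin 9)) (hs : s ∈ K) (hc : s1 * s * s1 ∈ K)
    {u : Perm (Fin 9)} (hu : E K u) : E K (u * s) := by
  rcases hu with h | h
  · left; exact K.mul_mem h hs
  · right
    have : u * s * s1 = (u * s1) * (s1 * s * s1) := by
      have h1 : s1 * s1 = 1 := by decide
      calc u * s * s1 = u * 1 * s * s1 := by rw [mul_one]
        _ = u * (s1 * s1) * s * s1 := by rw [h1]
        _ = _ := by group
    rw [this]; exact K.mul_mem h hc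

lemma step (K : Subgroup (Perm (Fin 9))) (hK : Good K) (s : Perm (Fin 9))
    (hs : s = s1 ∨ s = s2 ∨ s = s3 ∨ s = s4 ∨ s = s5 ∨ s = s6 ∨ s = s7) (u : Perm (Fin 9)) (hu : E K u) :
    E K (u * s) := by
  rcases hs with rfl | rfl | rfl | rfl | rfl | rfl | rfl
  · refine E_odd s1 ?_ rfl hu
    have : s1 * s1 = 1 := by decide
    rw [this]; exact K.one_mem
  · exact E_odd s2 hK.h12 (by decide) hu
  · exact E_odd s3 hK.h13 (by decide) hu
  · exact E_odd s4 hK.h14 (by decide) hu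
  · refine E_even s5 hK.h5 ?_ hu
    have : s1 * s5 * s1 = s5 * (s1 * s2) := by decide
    rw [this]; exact K.mul_mem hK.h5 hK.h12
  · refine E_even s6 hK.h6 ?_ hu
    have : s1 * s6 * s1 = s6 := by decide
    rw [this]; exact hK.h6
  · refine E_even s7 hK.h7 ?_ hu
    have : s1 * s7 * s1 = s7 * (s1 * s3) := by decide
    rw [this]; exact K.mul_mem hK.h7 hK.h13

/-- `R K g h` -/
def R (K : Subgroup (Perm (Fin 9))) (g h : Perm (Fin 9)) : Prop := E K (g⁻¹ * h)

lemma R_of_step (K : Subgroup (Perm (Fin 9))) (hK : Good K) (g h s : Perm (Fin 9))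
    (hs : s = s1 ∨ s = s2 ∨ s = s3 ∨ s = s4 ∨ s = s5 ∨ s = s6 ∨ s = s7) (hr : R K g (h * s)) : R K g h := by
  have h2 : s * s = 1 := by
    rcases hs with rfl | rfl | rfl | rfl | rfl | rfl | rfl <;> decide
  have := step K hK s hs _ hr
  unfold R
  have e : g⁻¹ * (h * s) * s = g⁻¹ * h := by
    rw [mul_assoc, mul_assoc, h2, mul_one]
  rwa [e] at this

lemma fin9_ext {g h : Perm (Fin 9)} (h0 : g 0 = h 0) (h1 : g 1 = h 1) (h2 : g 2 = h 2) (h3 : g 3 = h 3)
    (h4 : g 4 = h 4) (h5 : g 5 = h 5) (h6 : g 6 = h 6) (h7 : g 7 = h 7) (h8 : g 8 = h 8) : g = h := by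
  ext i
  fin_cases i <;> simp_all

lemma kp_inj {a b a' b' : Fin 9} (h : kp a b = kp a' b') : (a = a' ∧ b = b') ∨ (a = b' ∧ b = a') := by
  rcases pr_inj (f16 _) (f16 _) (f16 _) (f16 _) h with ⟨h1, h2⟩ | ⟨h1, h2⟩
  · left; exact ⟨Fin.ext h1, Fin.ext h2⟩
  · right; exact ⟨Fin.ext h1, Fin.ext h2⟩

lemma R_pairs (K : Subgroup (Perm (Fin 9))) (hK : Good K) (g : Perm (Fin 9)) (h : Perm (Fin 9))
    (e0 : kp (g 0) (g 1) = kp (h 0) (h 1)) (e1 : kp (g 2) (g 3) = kp (h 2) (h 3))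
    (e2 : kp (g 4) (g 5) = kp (h 4) (h 5)) (e3 : kp (g 6) (g 7) = kp (h 6) (h 7)) (e8 : g 8 = h 8) :
    R K g h := by
  have key : ∀ h : Perm (Fin 9), (g 0 = h 0 ∧ g 1 = h 1) → (g 2 = h 2 ∧ g 3 = h 3) → (g 4 = h 4 ∧ g 5 = h 5) →
      (g 6 = h 6 ∧ g 7 = h 7) → g 8 = h 8 → R K g h := by
    intro h a b c d e
    have : g = h := fin9_ext a.1 a.2 b.1 b.2 c.1 c.2 d.1 d.2 e
    subst this
    left; rw [inv_mul_cancel]; exact K.one_mem
  have key1 : ∀ h : Perm (Fin 9), (kp (g 0) (g 1) = kp (h 0) (h 1)) → (g 2 = h 2 ∧ g 3 = h 3) →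
      (g 4 = h 4 ∧ g 5 = h 5) → (g 6 = h 6 ∧ g 7 = h 7) → g 8 = h 8 → R K g h := by
    intro h a b c d e
    rcases kp_inj a with a | a
    · exact key h a b c d e
    · exact R_of_step K hK g h s1 (Or.inl rfl) (key (h * s1) a b c d e)
  have key2 : ∀ h : Perm (Fin 9), (kp (g 0) (g 1) = kp (h 0) (h 1)) → (kp (g 2) (g 3) = kp (h 2) (h 3)) →
      (g 4 = h 4 ∧ g 5 = h 5) → (g 6 = h 6 ∧ g 7 = h 7) → g 8 = h 8 → R K g h := by
    intro h a b c d e
    rcases kp_inj b with b | b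
    · exact key1 h a b c d e
    · exact R_of_step K hK g h s2 (Or.inr (Or.inl rfl)) (key1 (h * s2) a b c d e)
  have key3 : ∀ h : Perm (Fin 9), (kp (g 0) (g 1) = kp (h 0) (h 1)) → (kp (g 2) (g 3) = kp (h 2) (h 3)) →
      (kp (g 4) (g 5) = kp (h 4) (h 5)) → (g 6 = h 6 ∧ g 7 = h 7) → g 8 = h 8 → R K g h := by
    intro h a b c d e
    rcases kp_inj c with c | c
    · exact key2 h a b c d e
    · exact R_of_step K hK g h s3 (Or.inr (Or.inr (Or.inl rfl))) (key2 (h * s3) a b c d e)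
  rcases kp_inj e3 with d | d
  · exact key3 h e0 e1 e2 d e8
  · exact R_of_step K hK g h s4 (Or.inr (Or.inr (Or.inr (Or.inl rfl)))) (key3 (h * s4) e0 e1 e2 d e8)

lemma R_blocks (K : Subgroup (Perm (Fin 9))) (hK : Good K) (g : Perm (Fin 9)) (h : Perm (Fin 9))
    (e0 : kb (g 0) (g 1) (g 2) (g 3) = kb (h 0) (h 1) (h 2) (h 3))
    (e1 : kb (g 4) (g 5) (g 6) (g 7) = kb (h 4) (h 5) (h 6) (h 7)) (e8 : g 8 = h 8) :
    R K g h := by
  have key : ∀ h : Perm (Fin 9), (kp (g 0) (g 1) = kp (h 0) (h 1)) → (kp (g 2) (g 3) = kp (h 2) (h 3)) →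
      kb (g 4) (g 5) (g 6) (g 7) = kb (h 4) (h 5) (h 6) (h 7) → g 8 = h 8 → R K g h := by
    intro h a b c d
    rcases bl_inj (kp_lt _ _) (kp_lt _ _) (kp_lt _ _) (kp_lt _ _) c with c | c
    · exact R_pairs K hK g h a b c.1 c.2 d
    · exact R_of_step K hK g h s6 (Or.inr (Or.inr (Or.inr (Or.inr (Or.inr (Or.inl rfl))))))
        (R_pairs K hK g (h * s6) a b c.1 c.2 d)
  rcases bl_inj (kp_lt _ _) (kp_lt _ _) (kp_lt _ _) (kp_lt _ _) e0 with c | c
  · exact key h c.1 c.2 e1 e8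
  · exact R_of_step K hK g h s5 (Or.inr (Or.inr (Or.inr (Or.inr (Or.inl rfl)))))
        (key (h * s5) c.1 c.2 e1 e8)

lemma R_kap (K : Subgroup (Perm (Fin 9))) (hK : Good K) (g : Perm (Fin 9)) (h : Perm (Fin 9))
    (e : kap g = kap h) : R K g h := by
  have hl : ∀ k : Perm (Fin 9), tr (kb (k 0) (k 1) (k 2) (k 3)) (kb (k 4) (k 5) (k 6) (k 7)) < 4294967296 :=
    fun k => tr_lt (kb_lt _ _ _ _) (kb_lt _ _ _ _)
  have e8 : g 8 = h 8 := by
    apply Fin.ext
    have h1 := hl g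
    have h2 := hl h
    unfold kap tc at e
    omega
  have et : tr (kb (g 0) (g 1) (g 2) (g 3)) (kb (g 4) (g 5) (g 6) (g 7)) =
      tr (kb (h 0) (h 1) (h 2) (h 3)) (kb (h 4) (h 5) (h 6) (h 7)) := by
    have h1 := hl g
    have h2 := hl h
    unfold kap tc at e
    omega
  rcases tr_inj (kb_lt _ _ _ _) (kb_lt _ _ _ _) (kb_lt _ _ _ _) (kb_lt _ _ _ _) et with c | c
  · exact R_blocks K hK g h c.1 c.2 e8
  · exact R_of_step K hK g h s7 (Or.inr (Or.inr (Or.inr (Or.inr (Or.inr (Or.inr rfl))))))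
        (R_blocks K hK g (h * s7) c.1 c.2 e8)

lemma sign_s1 : Perm.sign s1 = -1 := by decide

/-- Conclusion: for even permutations with the same code, `g⁻¹ * h ∈ K`, when `K ≤ A9`. -/
lemma mem_of_kap (K : Subgroup (Perm (Fin 9))) (hK : Good K) (hKA : K ≤ alternatingGroup (Fin 9))
    (g h : Perm (Fin 9)) (hg : g ∈ alternatingGroup (Fin 9)) (hh : h ∈ alternatingGroup (Fin 9))
    (e : kap g = kap h) : g⁻¹ * h ∈ K := by
  rcases R_kap K hK g h e with h1 | h1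
  · exact h1
  · exfalso
    have h2 := hKA h1
    have h3 : g⁻¹ * h ∈ alternatingGroup (Fin 9) := Subgroup.mul_mem _ (Subgroup.inv_mem _ hg) hh
    rw [Perm.mem_alternatingGroup] at h2 h3
    rw [map_mul, h3, sign_s1] at h2
    exact absurd h2 (by decide)

end Cfsg.Agent.H86.Alt2
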