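import Cfsg.Agent.H86.Alt.TwoA
import Cfsg.Agent.H86.Alt.TwoData

set_option autoImplicit false

namespace Cfsg.Agent.H86.Alt2

def c3 (t x : ℕ) : ℕ :=
  if x = t % 16 then t / 16 % 16 else if x = t / 16 % 16 then t / 256 else if x = t / 256 then t % 16 else x

def Yw (w : List ℕ) (x : ℕ) : ℕ := w.foldr c3 x

def goodT (t : ℕ) : Bool :=
  Nat.blt (t % 16) 9 && Nat.blt (t / 16 % 16) 9 && Nat.blt (t / 256) 9 && !(Nat.beq (t % 16) (t / 16 % 16)) &&
    !(Nat.beq (t / 16 % 16) (t / 256)) && !(Nat.beq (t % 16) (t / 256))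

def unp : ℕ → ℕ → List ℕ
  | 0, _ => []
  | n + 1, m => (m % 4096) :: unp n (m / 4096)

def getc (i : ℕ) : ℕ := (tab >>> (36 * i)) % 68719476736

def nodupB : List ℕ → Bool
  | [] => true
  | a :: l => !(l.any (fun b => Nat.beq a b)) && nodupB l

def dg (c : ℕ) (i : ℕ) : ℕ := (c >>> (4 * i)) % 16

def valid (c : ℕ) : Bool :=
  let d8 := c >>> 32
  let d0 := dg c 7
  let d1 := dg c 6
  let d2 := dg c 5
  let d3 := dg c 4
  let d4 := dg c 3
  let d5 := dg c 2
  let d6 := dg c 1
  let d7 := dg c 0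
  nodupB [d0, d1, d2, d3, d4, d5, d6, d7, d8] &&
  ([d0, d1, d2, d3, d4, d5, d6, d7, d8].all (fun d => Nat.blt d 9)) &&
  Nat.beq (tc d8 (tr (bl (pr d0 d1) (pr d2 d3)) (bl (pr d4 d5) (pr d6 d7)))) c

def listEq : List ℕ → List ℕ → Bool
  | [], [] => true
  | a :: l, b :: m => Nat.beq a b && listEq l m
  | _, _ => false

def rm (a : ℕ) : List ℕ → Option (List ℕ)
  | [] => none
  | b :: l => if Nat.beq a b then some l else (match rm a l with | none => none | some l' => some (b :: l'))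

def permB : List ℕ → List ℕ → Bool
  | [], m => (match m with | [] => true | _ => false)
  | a :: l, m => (match rm a m with | none => false | some m' => permB l m')

def chk1 (e : ℕ × List ℕ × List (List ℕ × ℕ)) : Bool :=
  (e.2.1.all valid) && permB (e.2.1.map (actC (Yw (gx e.1)))) e.2.1 &&
  permB (e.2.1.map (actC (Yw (gy e.1)))) e.2.1 && Nat.blt e.1 5 &&
  e.2.2.all (fun p => p.1.all goodT && listEq (e.2.1.map (actC (Yw p.1))) ((unp e.2.1.length p.2).map getc))

def xorL : List ℕ → ℕ → ℕ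
  | [], a => a
  | i :: l, a => (2 ^ i) ^^^ xorL l a

def xorE (e : ℕ × List ℕ × List (List ℕ × ℕ)) (a : ℕ) : ℕ :=
  e.2.2.foldr (fun p b => xorL (unp e.2.1.length p.2) b) a

set_option maxRecDepth 100000 in
theorem chk_all : dat.all chk1 = true := by decide +kernel

set_option maxRecDepth 100000 in
theorem xor_all : dat.foldr xorE 0 = 1 := by decide +kernel

theorem getc_zero : getc 0 = 34378827111 := by decide +kernel

end Cfsg.Agent.H86.Alt2
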