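import Cfsg.Agent.H86.Alt.TwoC

set_option autoImplicit false

namespace Cfsg.Agent.H86.Alt2

open Equiv

lemma c3_real (t : ℕ) (h : goodT t = true) :
    ∃ y : A9, ∀ i : Fin 9, c3 t (i : ℕ) = ((y : Perm (Fin 9)) i : ℕ) := by
  unfold goodT at h
  simp only [Bool.and_eq_true, Bool.not_eq_true', Nat.blt_eq] at h
  obtain ⟨⟨⟨⟨⟨ha, hb⟩, hc⟩, hab0⟩, hbc0⟩, hac0⟩ := h
  have hab : t % 16 ≠ t / 16 % 16 := fun e => by rw [e] at hab0; simp at hab0
  have hbc : t / 16 % 16 ≠ t / 256 := fun e => by rw [e] at hbc0; simp at hbc0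
  have hac : t % 16 ≠ t / 256 := fun e => by rw [e] at hac0; simp at hac0
  set a : Fin 9 := ⟨t % 16, ha⟩ with hA
  set b : Fin 9 := ⟨t / 16 % 16, hb⟩ with hB
  set c : Fin 9 := ⟨t / 256, hc⟩ with hC
  have nab : a ≠ b := by intro e; exact hab (congrArg Fin.val e)
  have nbc : b ≠ c := by intro e; exact hbc (congrArg Fin.val e)
  have nac : a ≠ c := by intro e; exact hac (congrArg Fin.val e)
  refine ⟨⟨swap a b * swap b c, ?_⟩, ?_⟩
  · rw [Perm.mem_alternatingGroup, map_mul, Perm.sign_swap nab, Perm.sign_swap nbc]; decide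
  · intro i
    unfold c3
    have va : (a : ℕ) = t % 16 := rfl
    have vb : (b : ℕ) = t / 16 % 16 := rfl
    have vc : (c : ℕ) = t / 256 := rfl
    rw [← va, ← vb, ← vc]
    simp only [Perm.mul_apply]
    by_cases h1 : i = a
    · subst h1
      rw [if_pos rfl, swap_apply_of_ne_of_ne nab nac, swap_apply_left]
    · have h1' : (i : ℕ) ≠ (a : ℕ) := fun e => h1 (Fin.ext e)
      rw [if_neg h1']
      by_cases h2 : i = b
      · subst h2
        rw [if_pos rfl, swap_apply_left, swap_apply_of_ne_of_ne nac.symm nbc.symm]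
      · have h2' : (i : ℕ) ≠ (b : ℕ) := fun e => h2 (Fin.ext e)
        rw [if_neg h2']
        by_cases h3 : i = c
        · subst h3
          rw [if_pos rfl, swap_apply_right, swap_apply_right]
        · have h3' : (i : ℕ) ≠ (c : ℕ) := fun e => h3 (Fin.ext e)
          rw [if_neg h3', swap_apply_of_ne_of_ne h2 h3, swap_apply_of_ne_of_ne h1 h2]

lemma Yw_real (w : List ℕ) (h : w.all goodT = true) :
    ∃ y : A9, ∀ i : Fin 9, Yw w (i : ℕ) = ((y : Perm (Fin 9)) i : ℕ) := by
  induction w with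
  | nil => exact ⟨1, fun i => rfl⟩
  | cons t w ih =>
    simp only [List.all_cons, Bool.and_eq_true] at h
    obtain ⟨y1, h1⟩ := c3_real t h.1
    obtain ⟨y2, h2⟩ := ih h.2
    refine ⟨y1 * y2, fun i => ?_⟩
    show c3 t (Yw w i) = _
    rw [h2, h1]
    rfl

lemma nodupB_sound (l : List ℕ) (h : nodupB l = true) : l.Nodup := by
  induction l with
  | nil => exact List.nodup_nil
  | cons a l ih =>
    unfold nodupB at h
    simp only [Bool.and_eq_true, Bool.not_eq_true', List.any_eq_false] at h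
    rw [List.nodup_cons]
    refine ⟨fun ha => ?_, ih h.2⟩
    have := h.1 a ha
    simp at this

lemma listEq_sound (l m : List ℕ) (h : listEq l m = true) : l = m := by
  induction l generalizing m with
  | nil => cases m with
    | nil => rfl
    | cons b m => simp [listEq] at h
  | cons a l ih => cases m with
    | nil => simp [listEq] at h
    | cons b m =>
      simp only [listEq, Bool.and_eq_true, Nat.beq_eq] at h
      rw [h.1, ih m h.2]

lemma rm_sound (a : ℕ) (l m : List ℕ) (h : rm a l = some m) : l.Perm (a :: m) := by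
  induction l generalizing m with
  | nil => simp [rm] at h
  | cons b l ih =>
    unfold rm at h
    split_ifs at h with h1
    · simp only [Nat.beq_eq] at h1
      simp only [Option.some.injEq] at h
      subst h1; subst h; exact List.Perm.refl _
    · cases hr : rm a l with
      | none => rw [hr] at h; simp at h
      | some l' =>
        rw [hr] at h
        simp only [Option.some.injEq] at h
        subst h
        exact ((ih l' hr).cons b).trans (List.Perm.swap a b l')

lemma permB_sound (l m : List ℕ) (h : permB l m = true) : l.Perm m := by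
  induction l generalizing m with
  | nil => cases m with
    | nil => exact List.Perm.refl _
    | cons b m => simp [permB] at h
  | cons a l ih =>
    unfold permB at h
    cases hr : rm a m with
    | none => rw [hr] at h; simp at h
    | some m' =>
      rw [hr] at h
      exact ((ih m' h).cons a).trans (rm_sound a m m' hr).symm

lemma valid_sound (c : ℕ) (h : valid c = true) : ∃ g : Perm (Fin 9), kap g = c := by
  unfold valid at h
  simp only [Bool.and_eq_true] at h
  obtain ⟨⟨h1, h2⟩, h3⟩ := h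
  have hn := nodupB_sound _ h1
  rw [Nat.beq_eq] at h3
  set L : List ℕ := [dg c 7, dg c 6, dg c 5, dg c 4, dg c 3, dg c 2, dg c 1, dg c 0, c >>> 32] with hL
  have hlen : L.length = 9 := rfl
  have hlt : ∀ i : Fin 9, L.get (i.cast hlen.symm) < 9 := by
    intro i
    have := List.all_eq_true.mp h2 _ (List.get_mem L (i.cast hlen.symm))
    simpa using this
  let φ : Fin 9 → Fin 9 := fun i => ⟨L.get (i.cast hlen.symm), hlt i⟩
  have hinj : Function.Injective φ := by
    intro i j hij
    have h4 : L.get (i.cast hlen.symm) = L.get (j.cast hlen.symm) := congrArg Fin.val hij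
    have := (List.nodup_iff_injective_get.mp hn) h4
    exact Fin.ext (congrArg Fin.val this)
  refine ⟨Equiv.ofBijective φ (Finite.injective_iff_bijective.mp hinj), ?_⟩
  rw [← h3]
  rfl

section
variable {V : Type*} [AddCommGroup V] (ρ : A9 →* AddMonoid.End V) (v : V)

noncomputable def F (c : ℕ) : V :=
  open Classical in if h : ∃ g : A9, kap (g : Perm (Fin 9)) = c then ρ (Classical.choose h) v else 0

/-- the subgroup of permutations fixing `v` -/
def Kst : Subgroup (Perm (Fin 9)) where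
  carrier := {p | ∃ h : p ∈ alternatingGroup (Fin 9), ρ ⟨p, h⟩ v = v}
  mul_mem' := by
    rintro a b ⟨ha, ha'⟩ ⟨hb, hb'⟩
    refine ⟨Subgroup.mul_mem _ ha hb, ?_⟩
    have : (⟨a * b, Subgroup.mul_mem _ ha hb⟩ : A9) = ⟨a, ha⟩ * ⟨b, hb⟩ := rfl
    rw [this, map_mul]
    show ρ ⟨a, ha⟩ (ρ ⟨b, hb⟩ v) = v
    rw [hb', ha']
  one_mem' := by
    refine ⟨Subgroup.one_mem _, ?_⟩
    have : (⟨1, Subgroup.one_mem _⟩ : A9) = 1 := rfl
    rw [this, map_one]; rfl
  inv_mem' := by
    rintro a ⟨ha, ha'⟩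
    refine ⟨Subgroup.inv_mem _ ha, ?_⟩
    have : (⟨a⁻¹, Subgroup.inv_mem _ ha⟩ : A9) = (⟨a, ha⟩ : A9)⁻¹ := rfl
    rw [this]
    have h2 : ρ (⟨a, ha⟩ : A9)⁻¹ (ρ ⟨a, ha⟩ v) = v := by
      have : (ρ (⟨a, ha⟩ : A9)⁻¹ * ρ ⟨a, ha⟩) v = v := by
        rw [← map_mul, inv_mul_cancel, map_one]; rfl
      exact this
    conv_lhs => rw [← ha']
    exact h2

variable (hK : Good (Kst ρ v))
include hK

lemma F_kap (g : A9) : F ρ v (kap (g : Perm (Fin 9))) = ρ g v := by
  classical
  unfold F
  have hex : ∃ g' : A9, kap (g' : Perm (Fin 9)) = kap (g : Perm (Fin 9)) := ⟨g, rfl⟩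
  rw [dif_pos hex]
  have h1 := Classical.choose_spec hex
  set g' := Classical.choose hex with hg'
  have h2 := mem_of_kap (Kst ρ v) hK (fun p hp => hp.choose) g g' g.2 g'.2 h1.symm
  obtain ⟨h3, h4⟩ := h2
  have h5 : (⟨(g : Perm (Fin 9))⁻¹ * g', h3⟩ : A9) = g⁻¹ * g' := rfl
  rw [h5, map_mul] at h4
  have h6 : ρ g⁻¹ (ρ g' v) = v := h4
  have h7 : ρ g (ρ g⁻¹ (ρ g' v)) = ρ g v := by rw [h6]
  have h8 : ρ g (ρ g⁻¹ (ρ g' v)) = ρ g' v := by
    have : (ρ g * ρ g⁻¹) (ρ g' v) = ρ g' v := by rw [← map_mul, mul_inv_cancel, map_one]; rfl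
    exact this
  rw [← h8, h7]

omit hK in
lemma even_rep (g : Perm (Fin 9)) : ∃ g' : A9, kap (g' : Perm (Fin 9)) = kap g := by
  rcases Int.units_eq_one_or (Perm.sign g) with h | h
  · exact ⟨⟨g, Perm.mem_alternatingGroup.mpr h⟩, rfl⟩
  · refine ⟨⟨g * s1, Perm.mem_alternatingGroup.mpr ?_⟩, ?_⟩
    · rw [map_mul, h, sign_s1]; decide
    · show kap (g * s1) = kap g
      have : kp ((g * s1) 0) ((g * s1) 1) = kp (g 0) (g 1) := pr_comm _ _
      show tc _ (tr (bl (kp ((g * s1) 0) ((g * s1) 1)) _) _) = _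
      rw [this]
      rfl

lemma F_act (y : A9) (Y : ℕ → ℕ) (hY : ∀ i : Fin 9, Y (i : ℕ) = ((y : Perm (Fin 9)) i : ℕ)) (c : ℕ)
    (hc : ∃ g : Perm (Fin 9), kap g = c) : F ρ v (actC Y c) = ρ y (F ρ v c) := by
  obtain ⟨g, rfl⟩ := hc
  obtain ⟨g', hg'⟩ := even_rep g
  rw [← hg', F_kap ρ v hK, actC_kap Y y g' hY]
  have : ((y : Perm (Fin 9)) * g' : Perm (Fin 9)) = ((y * g' : A9) : Perm (Fin 9)) := rfl
  rw [this, F_kap ρ v hK, map_mul]
  rfl

end

lemma xorL_eq (l : List ℕ) (a : ℕ) : xorL l a = l.foldr (fun i b => (2 ^ i) ^^^ b) a := by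
  induction l with
  | nil => rfl
  | cons i l ih => simp [xorL, ih]

section
variable {V : Type*} [AddCommGroup V] (h2 : ∀ v : V, v + v = 0) (h : ℕ → V)

noncomputable def ev (m : ℕ) : V := ∑ i ∈ Finset.range 4096, if m.testBit i then h i else 0

include h2 in
lemma ev_xor (a b : ℕ) : ev h (a ^^^ b) = ev h a + ev h b := by
  unfold ev
  rw [← Finset.sum_add_distrib]
  apply Finset.sum_congr rfl
  intro i _
  rw [Nat.testBit_xor]
  cases a.testBit i <;> cases b.testBit i <;> simp [h2]

lemma ev_two_pow {i : ℕ} (hi : i < 4096) : ev h (2 ^ i) = h i := by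
  unfold ev
  rw [Finset.sum_eq_single i]
  · simp
  · intro j _ hj
    rw [Nat.testBit_two_pow_of_ne (Ne.symm hj)]
    simp
  · intro h1; exact absurd (Finset.mem_range.mpr hi) h1

lemma unp_lt (n m : ℕ) : ∀ i ∈ unp n m, i < 4096 := by
  induction n generalizing m with
  | zero => intro i hi; simp [unp] at hi
  | succ n ih =>
    intro i hi
    simp only [unp, List.mem_cons] at hi
    rcases hi with rfl | hi
    · exact Nat.mod_lt _ (by norm_num)
    · exact ih _ i hi

include h2 in
lemma ev_xorL (l : List ℕ) (hl : ∀ i ∈ l, i < 4096) (a : ℕ) :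
    ev h (xorL l a) = (l.map h).sum + ev h a := by
  induction l with
  | nil => simp [xorL]
  | cons i l ih =>
    simp only [xorL, List.map_cons, List.sum_cons]
    rw [ev_xor h2, ev_two_pow h (hl i (by simp)), ih (fun j hj => hl j (by simp [hj]))]
    abel

end

end Cfsg.Agent.H86.Alt2
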